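import Cfsg.Agent.H821.K547.Tools
import Cfsg.Agent.H281.K547.FiTwoD
import Cfsg.Agent.H293.F23B.Row
import Cfsg.Agent.KFacts.FiTTh.Has
import Cfsg.Agent.KFacts.FiTTh.Quasi

/-!
# S4547: the row `Fi23` (helper559)

The centralizer of a transposition is a double cover of `Fi22` of odd index 31671, so the Sylow 2-subgroups need three
generators.
-/

set_option autoImplicit false

namespace Cfsg.Agent.H559.K547

open Cfsg Cfsg.Agent.H601.K4 Cfsg.Agent.H821.K547

universe u

theorem d3_model : D3 Spor.Fi23 := by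
  have hfin : Finite Spor.Fi23 := Nat.finite_of_card_ne_zero (by rw [H293.F23B.card_fi23']; norm_num)
  obtain ⟨-, ⟨e⟩, -⟩ := KFacts.FiTTh.Quasi.cover
  refine D3.of_map Fischer.Fi23Class.K ?_ (e.toMonoidHom.comp (QuotientGroup.mk' _))
    (e.surjective.comp (QuotientGroup.mk'_surjective _)) (H281.K547.d3_fi22 ⟨MulEquiv.refl _⟩)
  have h : Fischer.Fi23Class.K.index = 31671 := SporRec.Fi23Index.index_H
  rw [h]
  norm_num

variable {S : Type u} [Group S]

theorem d3 (h : Spor.IsoFi23 S) : D3 S := by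
  obtain ⟨e⟩ := h
  have hfin : Finite Spor.Fi23 := Nat.finite_of_card_ne_zero (by rw [H293.F23B.card_fi23']; norm_num)
  have : Finite S := Finite.of_equiv _ e.symm.toEquiv
  exact D3.congr e d3_model

theorem inner (h : Spor.IsoFi23 S) (α : MulAut S) : IsInn α := by
  obtain ⟨f⟩ := h
  obtain ⟨g, hg⟩ := KFacts.FiTTh.Has.inn ((f.symm.trans α).trans f)
  refine ⟨f.symm g, fun x => ?_⟩
  apply f.injective
  have h1 := DFunLike.congr_fun hg (f x)
  rw [map_mul, map_mul, map_inv, f.apply_symm_apply]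
  simpa using h1

/-- **Row `Fi23`.** -/
theorem row (h : Spor.IsoFi23 S) : Row S where
  base := Or.inl ⟨H293.F23B.good5 h, d3 h⟩
  ext τ _ hτ := absurd (inner h τ) hτ

end Cfsg.Agent.H559.K547
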